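import Cfsg.Agent.LX.D4c
import Cfsg.Agent.S1082
import Cfsg.Agent.S2396
import Cfsg.Agent.Chev.StructSimple
import Cfsg.Agent.Known.O8pMult

/-! Frames in the polar space and Steinberg's relations of type `D₄`. -/

set_option autoImplicit false
set_option synthInstance.maxSize 4000

universe u

namespace Cfsg.Lib.LX

open Subgroup Cfsg.Lib.Local Cfsg.Lib.Solv Module Cfsg.Lib.Spor Equiv Cfsg.Lie
open scoped Pointwise commutatorElement

variable {G : Type u} [Group G]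

abbrev I8 := Fin 4 × Bool

def I8.o (p : I8) : I8 := (p.1, !p.2)

/-- A frame with its root elements. -/
structure Fr (z : G) (J : Subgroup G) (e : I8 → Subgroup G) (X : I8 → I8 → G) : Prop where
  l : ∀ {p q}, p.1 ≠ q.1 → Inc z J (X p q) (e p)
  r : ∀ {p q}, p.1 ≠ q.1 → Inc z J (X p q) (e q)
  opp : ∀ p, ¬ Col z J (e p) (e p.o)

variable [Finite G] {z : G} {J : Subgroup G}

theorem exists_fr (H : Fl z J) : ∃ e X, Fr z J e X ∧ e (0, false) = J ∧ z ∈ e (1, false) := by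
  have I := Inc.base H
  obtain ⟨L, hL, nL⟩ := I.other
  obtain ⟨a', a0, a1, -, a2, -⟩ := hL.frame
  have nb := a0 ▸ a2 0
  obtain ⟨F, hF, nF⟩ := (a1 0 true).other
  have n : ¬ Col z J J F := fun c => nb (by
    by_cases e : J = F
    · rw [I.uniq hL nL.symm (e ▸ hF) (a1 0 true).mem]; exact I.pre.mem
    · exact (hL.tri I (a1 0 true) hF c nL nF.symm e fun k => nb (k ▸ I.pre.mem)).mem)
  obtain ⟨a, rfl, b1, b2, b3, -⟩ := I.frame
  choose M m1 m2 using fun i b => Inc.trace n ⟨_, I, hL⟩ ⟨_, a1 0 true, hF⟩ (b1 i b)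
  have nM : ∀ i b, M i b ≠ J := fun i b e => n (e ▸ m2 i b)
  let e : I8 → Subgroup G := fun p => Fin.cases (cond p.2 F J) (fun i => M i p.2) p.1
  have c0 : ∀ b i c, Col (a 0 false) J (e (0, b)) (e (Fin.succ i, c)) := fun b i c => by
    cases b
    exacts [⟨_, b1 i c, m1 i c⟩, (m2 i c).symm]
  have : ∀ p q : I8, ∃ d, p.1 ≠ q.1 → Inc (a 0 false) J d (e p) ∧ Inc (a 0 false) J d (e q) := by
    rintro ⟨i, b⟩ ⟨j, c⟩
    by_cases ne : i = j
    · exact ⟨1, fun k => (k ne).elim⟩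
    refine Exists.imp (fun _ h _ => h) (?_ : Col _ J (e (i, b)) (e (j, c)))
    revert ne
    refine Fin.cases ?_ (fun i => ?_) i <;> refine Fin.cases ?_ (fun j => ?_) j <;> intro ne
    exacts [(ne rfl).elim, c0 b j c, (c0 c i b).symm, by
      obtain ⟨x, -, -, s, t⟩ := (b1 i b).plane (b2 i j b c fun k => ne (k ▸ rfl)) (b1 j c).mem
        (m1 i b) (m1 j c) (nM _ _) (nM _ _)
      exact ⟨x, s, t⟩]
  choose X hX using this
  refine ⟨e, X, ⟨fun h => (hX _ _ h).1, fun h => (hX _ _ h).2, ?_⟩, rfl, (m1 0 false).mem⟩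
  have k : ∀ i, ¬ Col (a 0 false) J (M i false) (M i true) := fun i c => by
    have : a i true ≠ a i false := fun k => b3 i (k ▸ (b1 i true).pre.mem)
    exact b3 i ((b1 i false).tri (m1 i false) (b1 i true) (m1 i true) c (nM _ _).symm (nM _ _).symm
      (fun f => this ((b1 i false).uniq (m1 i false) (nM _ _).symm (b1 i true)
        (f ▸ (m1 i true).mem))) this).mem
  rintro ⟨i, b⟩
  refine Fin.cases ?_ (fun i => ?_) i <;> cases b
  exacts [n, fun c => n c.symm, k i, fun c => k i c.symm]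

namespace Fr
variable {e : I8 → Subgroup G} {X : I8 → I8 → G} (h : Fr z J e X) {p q p' q' : I8}
include h

omit [Finite G] in
theorem col (n : p.1 ≠ q.1) : Col z J (e p) (e q) := ⟨_, h.l n, h.r n⟩

omit [Finite G] in
theorem ne (n : p.1 ≠ q.1) : e p ≠ e q := fun c =>
  h.opp p (c ▸ h.col (p := q) (q := p.o) n.symm)

theorem symm (n : p.1 ≠ q.1) : X q p = X p q :=
  (h.l n).uniq (h.r n) (h.ne n) (h.r n.symm) (h.l n.symm).mem

theorem nw (a : p.1 ≠ q.1) (b : p.1 ≠ q'.1) (c : q.1 ≠ q'.1) : NW (X p q) (X p q') :=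
  (h.l a).tri (h.r a) (h.l b) (h.r b) (h.col c) (h.ne a) (h.ne b) (h.ne c) fun k =>
    h.opp q' ((h.l a).third (h.r a) (k ▸ h.r b) (h.ne a) (h.col (p := q'.o) b.symm)
      (h.col (p := q'.o) c.symm)).symm

theorem comm₁ (a : p.1 ≠ q.1) (b : p.1 ≠ q'.1) : X p q * X p q' = X p q' * X p q :=
  (h.l a).comm (h.l a).mem (h.l b).mem

theorem comm₂ (a : p.1 ≠ q.1) (b : p.1 ≠ p'.1) (c : p.1 ≠ q'.1) (d : q.1 ≠ p'.1) (f : q.1 ≠ q'.1)
    (g : p'.1 ≠ q'.1) : X p q * X p' q' = X p' q' * X p q :=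
  (h.nw b c g).E_comm (h.nw b a d.symm).mem (h.nw c a f.symm).mem
    (h.symm b ▸ (h.nw b.symm g c).mem) (h.symm c ▸ h.symm g ▸ (h.nw c.symm g.symm b).mem)

theorem not_mem (a : p.1 ≠ q.1) : X p q ∉ qOf (X p q.o) := fun c => by
  have b : p.1 ≠ q.o.1 := a
  have n : X p q ≠ X p q.o := fun k => h.opp q ⟨_, h.r a, k ▸ h.r b⟩
  obtain ⟨x, -, -, s, t⟩ := (h.l b).plane ((h.l b).nw (h.l a) c n) (h.l a).mem (h.r b) (h.r a)
    (h.ne b).symm (h.ne a).symm
  exact h.opp q ⟨x, t, s⟩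

theorem comm₃ (a : p.1 ≠ q.1) (b : p.1 ≠ q'.1) (c : q.1 ≠ q'.1) :
    X p q * X p.o q' * (X p q)⁻¹ = X q q' * X p.o q' := by
  have b' : p.o.1 ≠ q'.1 := b
  have m₁ : X p q ∈ qOf (X q q') := h.symm a ▸ (h.nw c a.symm b.symm).mem
  have m₂ : X p.o q' ∈ qOf (X q q') := h.symm b' ▸ h.symm c ▸ (h.nw c.symm b'.symm a.symm).mem
  refine ((h.l c).pre.comm_or m₁ m₂).resolve_left fun k => ?_
  have f : MulAut.conj (X p q) • e p.o = e p.o := by
    by_contra n
    have t := (h.col (p := q'.o) (q := p.o) b.symm)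
    have t' := t.cj (X p q)
    rw [(h.r (q := q'.o) b).norm (h.nw (q := q'.o) b a c.symm).mem] at t'
    exact h.opp q' (((h.l b').cj' k).third (h.l b') (h.r b') n t' t).symm
  have a' : p.1 ≠ q.o.1 := a
  have t := h.col (p := p.o) (q := q.o) a
  refine h.opp p (((h.r a').cj' (h.comm₁ a a')).third (h.r a') (h.l a')
    ((h.l a').move (h.r a') (h.ne a') (h.l a).mem (h.not_mem a)) (f ▸ t.cj _) t).symm

end Fr

/-- The root with index `r` as a pair of frame points. -/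
def rt8 (r : ℕ) : I8 × I8 := [((0, true), (1, true)), ((0, true), (2, true)),
  ((0, true), (3, false)), ((0, true), (3, true)), ((0, true), (2, false)), ((0, true), (1, false)),
  ((1, true), (2, true)), ((1, true), (3, false)), ((1, true), (3, true)), ((1, true), (2, false)),
  ((2, true), (3, false)), ((2, true), (3, true)), ((2, false), (3, false)), ((2, false), (3, true)),
  ((1, false), (2, true)), ((1, false), (3, false)), ((1, false), (3, true)),
  ((1, false), (2, false)), ((0, false), (1, true)), ((0, false), (2, true)),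
  ((0, false), (3, false)), ((0, false), (3, true)), ((0, false), (2, false)),
  ((0, false), (1, false))].getD r ((0, false), (1, false))

def sw8 (b : Bool) (a : I8 × I8) : I8 × I8 := cond b a.swap a

theorem rt8_ne : ∀ r < 24, ∀ b, (sw8 b (rt8 r)).1.1 ≠ (sw8 b (rt8 r)).2.1 := by decide +kernel

theorem rt8_surj : ∀ p q : I8, p.1 ≠ q.1 → ∃ r < 24, ∃ b, sw8 b (rt8 r) = (p, q) := by
  decide +kernel

theorem rt8_comm : ∀ r < 24, ∀ s < 24, s ≠ r → s ≠ chevD4.neg r → ∃ b c,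
    (chevD4.commTerms r s = [] ∧ ((sw8 b (rt8 r)).1 = (sw8 c (rt8 s)).1 ∨
      ((rt8 r).1.1 ≠ (rt8 s).1.1 ∧ (rt8 r).1.1 ≠ (rt8 s).2.1 ∧ (rt8 r).2.1 ≠ (rt8 s).1.1 ∧
        (rt8 r).2.1 ≠ (rt8 s).2.1))) ∨
    ((sw8 b (rt8 r)).1 = (sw8 c (rt8 s)).1.o ∧ (sw8 c (rt8 s)).2.1 ≠ (sw8 b (rt8 r)).2.1 ∧
      ∃ k ∈ (chevD4.commTerms r s).map (·.1), k < 24 ∧
        (chevD4.commTerms r s = [(k, 1, 1, 1)] ∨ chevD4.commTerms r s = [(k, -1, 1, 1)]) ∧
        ∃ d, sw8 d (rt8 k) = ((sw8 c (rt8 s)).2, (sw8 b (rt8 r)).2)) := by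
  decide +kernel

namespace Fr
variable {e : I8 → Subgroup G} {X : I8 → I8 → G} (h : Fr z J e X)
include h

theorem sw {r : ℕ} (hr : r < 24) (b : Bool) :
    X (rt8 r).1 (rt8 r).2 = X (sw8 b (rt8 r)).1 (sw8 b (rt8 r)).2 := by
  cases b
  exacts [rfl, h.symm (rt8_ne r hr true)]

theorem stRel : Chev.StRel chevD4 fun r (t : ZMod 2) => X (rt8 r).1 (rt8 r).2 ^ t.val where
  add r hr t u := by
    have : X (rt8 r).1 (rt8 r).2 * X (rt8 r).1 (rt8 r).2 = 1 :=
      (h.l (rt8_ne r hr false)).pre.mul_self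
    rcases z2_cases t with rfl | rfl <;> rcases z2_cases u with rfl | rfl <;>
      simp [ZMod.val_one, show (1 + 1 : ZMod 2) = 0 from rfl, this]
  comm r s hr hs n1 n2 t u := by
    obtain ⟨b, c, k⟩ := rt8_comm r hr s hs n1 n2
    have nr := rt8_ne r hr b
    have ns := rt8_ne s hs c
    rcases k with ⟨k, l⟩ | ⟨l1, l2, k, -, hk, l3, d, l4⟩
    · simp only [ChevalleyDatum.commWord, k, List.map_nil, Chev.word_nil, mul_one]
      refine (Commute.pow_pow (?_ : _ * _ = _ * _) _ _).symm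
      rcases l with l | ⟨l1, l2, l3, l4⟩
      · rw [h.sw hr b, h.sw hs c, ← l]; exact h.comm₁ nr (l ▸ ns)
      · exact h.comm₂ (rt8_ne r hr false) l1 l2 l3 l4 (rt8_ne s hs false)
    have w : Chev.word (fun r (t : ZMod 2) => X (rt8 r).1 (rt8 r).2 ^ t.val)
        (chevD4.commWord (ZMod 2) r s t u) = X (rt8 k).1 (rt8 k).2 ^ (t * u).val := by
      rcases l3 with l | l <;> simp [ChevalleyDatum.commWord, l]
    rw [w, h.sw hr b, h.sw hs c, h.sw hk d, l4, l1]
    rw [l1] at nr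
    have m := h.comm₃ ns nr l2
    have m' := h.comm₁ (p := (sw8 b (rt8 r)).2) l2.symm (q' := (sw8 c (rt8 s)).1.o) nr.symm
    have m'' := h.comm₁ l2 ns.symm
    rw [h.symm l2, h.symm nr] at m'
    rw [h.symm ns] at m''
    rcases z2_cases t with rfl | rfl <;> rcases z2_cases u with rfl | rfl <;>
      simp only [ZMod.val_zero, ZMod.val_one, pow_zero, pow_one, mul_one, one_mul, mul_zero]
    rw [mul_assoc, ← m'', ← mul_assoc, ← m', ← m, inv_mul_cancel_right]

theorem equiv [IsSimpleGroup G] (hc : center G = ⊥)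
    (ht : closure {x | ∃ p q, p.1 ≠ q.1 ∧ x = X p q} = ⊤) :
    Nonempty (G ≃* Omega (ZMod 2) (quadFormPlus 4 (ZMod 2))) := by
  obtain ⟨-, R⟩ := Chev.Core.cert_root_of_mem (D := chevD4) (by simp)
  obtain ⟨θ, h1, h2, -⟩ := Cfsg.Agent.S2396.result (K := ZMod 2) chevD4 (by simp)
    fun h => by
      rcases List.mem_pair.1 h with h | h <;> exact absurd (congrArg (·.rank) h) (by decide)
  let φ := h.stRel.scLift R
  have hφ : Function.Surjective φ := by
    rw [← MonoidHom.range_eq_top, eq_top_iff, ← ht, closure_le]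
    rintro _ ⟨p, q, n, rfl⟩
    obtain ⟨r, hr, b, k⟩ := rt8_surj p q n
    exact ⟨_, by rw [h.stRel.scLift_scGen R hr 1, h.sw hr b, k, ZMod.val_one, pow_one]⟩
  let ψ := θ.liftOfRightInverse _ (Function.rightInverse_surjInv h1) ⟨φ, fun x hx => by
    rw [MonoidHom.mem_ker, ← mem_bot, ← hc, mem_center_iff]
    intro g
    obtain ⟨y, rfl⟩ := hφ g
    rw [← map_mul, ← map_mul, mem_center_iff.1 (h2 hx)]⟩
  have s : Function.Surjective ψ := fun g => by
    obtain ⟨y, rfl⟩ := hφ g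
    exact ⟨θ y, θ.liftOfRightInverse_comp_apply ..⟩
  have := (Chev.chevalley_simple_nonabelian' (D := chevD4) (F := ZMod 2) (by simp)).1
  have i : Function.Injective ψ := ψ.ker_eq_bot_iff.1 (ψ.normal_ker.eq_bot_or_eq_top.resolve_right
    fun k => by
      obtain ⟨g, hg⟩ := exists_ne (1 : G)
      obtain ⟨y, rfl⟩ := s g
      exact hg (k ▸ mem_top y : y ∈ ψ.ker))
  obtain ⟨f⟩ := Cfsg.Agent.S1082.result (F := ZMod 2)
  exact ⟨((MulEquiv.ofBijective ψ ⟨i, s⟩).symm.trans f).trans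
    ((QuotientGroup.quotientMulEquivOfEq Known.o8p_cen).trans QuotientGroup.quotientBot)⟩

end Fr

end Cfsg.Lib.LX
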