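import Cfsg.Agent.LX.O6m
import Cfsg.Agent.Known.FourGroup
import Cfsg.Agent.Spor.Fi22Order
import Cfsg.Agent.S1714

/-! The case of a centre of order eight: the isolated case and the Fischer group. -/

set_option autoImplicit false

namespace Cfsg.Lib.LX.O6

open Subgroup Cfsg.Lib.Local Cfsg.Lib.Solv Cfsg.Lib.Known
open scoped commutatorElement

universe u v

variable {G : Type u} [Group G] {z a b t x : G} {E : Subgroup G}
  {U : Type*} [AddCommGroup U] [Module (ZMod 2) U] {P : Rp U}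

/-- The centre of `J` is `E × ⟨z⟩` with a four-group `E`. -/
structure T3 (P : Rp U) (z : G) (E : Subgroup G) : Prop where
  ce : Ce z
  card : Nat.card E = 4
  za : ∀ x, Zc (qOf z) x ↔ x ∈ E ∨ x * z ∈ E
  zn : z ∉ E
  nm : ∀ g, g * z = z * g → ∀ u ∈ E, g * u * g⁻¹ ∈ E
  tr : ∀ u ∈ E, ∀ v ∈ E, u ≠ 1 → v ≠ 1 → u ≠ v → ∃ g, g * z = z * g ∧ g * u * g⁻¹ = v ∧ g * v * g⁻¹ = u * v
  ex : ∀ u ∈ E, u ≠ 1 → ∃ L : Lc z (centralizer {z} ⊓ centralizer {u}) (qOf z) U, L.toRp = P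

theorem Ce.iso_of [Finite G] (h : Ce z) {m : G} (hx : Zc (qOf z) x) (hx' : Zc (qOf z) (m⁻¹ * x * m⁻¹⁻¹))
    (i : Iso x z) (c : m * z * m⁻¹ * z = z * (m * z * m⁻¹)) : m * z * m⁻¹ = z := by
  obtain ⟨n, hn, k⟩ := h.into (M := centralizer {x}) (R := qOf (m * z * m⁻¹)) (fun j hj => mem_C.2 (hx.2 j hj))
    (isPGroup_map_pCore 2 _) fun j hj => mem_C.2 (by simpa [mul_assoc] using ((zc_cj (g := m)).2 hx').2 j hj)
  have := h.fix (n := n * m) fun j hj => by simpa only [mul_inv_rev, mul_assoc] using k _ (mem_qOf_conj (g := m) hj)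
  have e : m * z * m⁻¹ = n⁻¹ * z * n⁻¹⁻¹ := by
    rw [← inv_mul_cancel_left n (m * z), ← mul_assoc n, this]; group
  rw [e] at c ⊢
  exact i _ (Commute.inv_left (mem_C.1 hn)) c

namespace T3

variable (T : T3 P z E)
include T

theorem cj (g : G) : T3 P (g * z * g⁻¹) (E.map (MulAut.conj g).toMonoidHom) := by
  have m : ∀ x, (MulAut.conj g) x ∈ E.map (MulAut.conj g).toMonoidHom ↔ x ∈ E := fun x =>
    mem_map_iff_mem (MulAut.conj g).injective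
  refine ⟨T.ce.cj (isConj_conj g z), (card_map_of_injective (MulAut.conj g).injective).trans T.card,
    (MulAut.conj g).surjective.forall.2 fun x => ?_, mt (m z).1 T.zn, (MulAut.conj g).surjective.forall.2 fun k c => ?_,
    ?_, ?_⟩
  · rw [m, ← MulAut.conj_apply g z, ← map_mul, m, ← T.za]; exact zc_cj
  · rintro _ ⟨u, hu, rfl⟩
    exact ⟨_, T.nm k (by simpa [mul_assoc] using cm_cj.1 c) u hu, by simp [mul_assoc]⟩
  · rintro _ ⟨u, hu, rfl⟩ _ ⟨v, hv, rfl⟩ n1 n2 n3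
    obtain ⟨k, k1, k2, k3⟩ := T.tr u hu v hv (by simpa using n1) (by simpa using n2) (by simpa using n3)
    exact ⟨g * k * g⁻¹, by rw [conj_mul, conj_mul, k1], by simp [← k2, mul_assoc], by
      rw [← map_mul, ← k3]; simp [mul_assoc]⟩
  · rintro _ ⟨u, hu, rfl⟩ n
    obtain ⟨L, e⟩ := T.ex u hu (by simpa using n)
    exact ⟨L.cj g (fun x => by rw [mem_inf, mem_inf, mem_C, mem_C, mem_C, mem_C, cm_cj, ← cm_cj (y := u)]; rfl)
      fun _ => mem_q_cj, e⟩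

theorem zc (ha : a ∈ E) : Zc (qOf z) a := (T.za a).2 (.inl ha)

theorem zz : z * z = 1 := by rw [← pow_two, ← T.ce.ord, pow_orderOf_eq_one]

theorem zc' (ha : a ∈ E) : Zc (qOf z) (a * z) := (T.za _).2 (.inr (by rwa [mul_assoc, T.zz, mul_one]))

theorem cm (ha : a ∈ E) : a * z = z * a := q_cm (T.zc ha).1

theorem sq (ha : a ∈ E) : a * a = 1 := by
  by_cases n : a = 1
  · simp [n]
  obtain ⟨L, -⟩ := T.ex a ha n
  exact L.zsq (T.zc ha)

theorem sq' (ha : a ∈ E) : a * z * (a * z) = 1 := by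
  rw [mul_assoc, ← mul_assoc z, ← T.cm ha, mul_assoc, T.zz, mul_one, T.sq ha]

theorem ord (ha : a ∈ E) (n : a ≠ 1) : orderOf a = 2 := orderOf_eq_prime ((pow_two a).trans (T.sq ha)) n

theorem ec (ha : a ∈ E) (hb : b ∈ E) : a * b = b * a := (T.zc hb).2 a (T.zc ha).1

theorem four (ha : a ∈ E) (hb : b ∈ E) (n1 : a ≠ 1) (n2 : b ≠ 1) (n3 : a ≠ b) (hx : x ∈ E) :
    x = 1 ∨ x = a ∨ x = b ∨ x = a * b :=
  have k : IsFourPair a b := ⟨T.sq ha, T.sq hb, T.ec hb ha, n1, n2, n3⟩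
  k.mem_iff.1 (k.eq_four T.card ha hb ▸ hx)

theorem other (a : G) : ∃ b ∈ E, b ≠ 1 ∧ a ≠ b := by
  by_contra! k
  have := Nat.card_le_card_of_injective (β := ({1, a} : Set G)) (fun x : E => ⟨x, by
    simpa [or_iff_not_imp_left, eq_comm (b := a)] using k x x.2⟩) fun x y e => Subtype.ext (Subtype.mk.inj e)
  rw [T.card] at this
  exact absurd (this.trans (Set.ncard_insert_le 1 {a})) (by simp)

theorem conj (ha : a ∈ E) (hb : b ∈ E) (n1 : a ≠ 1) (n2 : b ≠ 1) : ∃ g, g * z = z * g ∧ g * a * g⁻¹ = b := by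
  by_cases n : a = b
  · exact ⟨1, by simp, by simp [n]⟩
  · exact (T.tr a ha b hb n1 n2 n).imp fun g k => ⟨k.1, k.2.1⟩

theorem nc (ha : a ∈ E) : ¬ IsConj z a := fun c => T.zn (T.ce.nz a c (T.zc ha) ▸ ha)

theorem mv {g : G} (c : g * z = z * g) (ha : a ∈ E) (hb : b ∈ E) (n1 : a ≠ 1) (n2 : b ≠ 1) (n3 : a ≠ b)
    (e : g * a = a * g) : g * b * g⁻¹ = b ∨ g * b * g⁻¹ = a * b := by
  rcases T.four ha hb n1 n2 n3 (T.nm g c b hb) with k | k | k
  · exact (n2 (conj_eq_one_iff.1 k)).elim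
  · rw [mul_inv_eq_iff_eq_mul, ← e, mul_right_inj] at k; exact (n3 k.symm).elim
  · exact k

theorem sq2 {g : G} (c : g * z = z * g) (ha : a ∈ E) (n1 : a ≠ 1) (e : g * a = a * g) (hb : b ∈ E) :
    g * g * b = b * (g * g) := by
  by_cases n2 : b = 1
  · simp [n2]
  by_cases n3 : a = b
  · exact n3 ▸ Commute.mul_left e e
  rcases T.mv c ha hb n1 n2 n3 e with k | k <;> rw [mul_inv_eq_iff_eq_mul] at k
  · exact Commute.mul_left k k
  · rw [mul_assoc, k, ← mul_assoc, ← mul_assoc, e, mul_assoc a, k, ← mul_assoc, ← mul_assoc, T.sq ha, one_mul,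
      mul_assoc]

variable [Finite G]

theorem nc' (ha : a ∈ E) (hb : b ∈ E) : ¬ IsConj a (b * z) := fun c => by
  obtain ⟨k, k1, k2⟩ := T.ce.burn (T.zc ha) (T.zc' hb) c
  exact T.zn ((mul_mem_cancel_left hb).1 (k2 ▸ T.nm k k1 a ha))

theorem fix {R : Subgroup G} (p : IsPGroup 2 R) (hR : R ≤ centralizer {z}) :
    ∃ u ∈ E, u ≠ 1 ∧ ∀ r ∈ R, r * u = u * r := by
  have : Fact (Nat.Prime 2) := ⟨Nat.prime_two⟩
  obtain ⟨u, hu, k, -, o⟩ := PG.exists_mem_centralizer_orderOf_eq p (IsPGroup.of_card (n := 2) T.card)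
    (fun r hr => mem_normalizer_of_conj_mem (T.nm r (mem_C.1 (hR hr)))) fun c => by simpa [c] using T.card
  exact ⟨u, hu, fun c => by simp [c] at o, k⟩

theorem fix' (t : G) : ∃ u ∈ E, u ≠ 1 ∧ ∀ r ∈ qOf t, r * z = z * r → r * u = u * r :=
  (T.fix (R := qOf t ⊓ centralizer {z}) ((isPGroup_map_pCore 2 _).to_le inf_le_left) inf_le_right).imp
    fun _ k => ⟨k.1, k.2.1, fun r hr c => k.2.2 r ⟨hr, mem_C.2 c⟩⟩

variable [Finite U]

theorem iso (i1 : ∀ u ∈ E, u ≠ 1 → Iso u z) (i2 : ∀ u ∈ E, u ≠ 1 → Iso (u * z) z) : IsIsolatedInvolution z := by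
  refine ⟨T.ce.ord, fun g c => by_contra fun n => ?_⟩
  have T' := T.cj g
  obtain ⟨x, hx, x1, x2⟩ := T.fix' (g * z * g⁻¹)
  obtain ⟨_, ⟨y, hy, rfl⟩, y1, y2⟩ := T'.fix' z
  obtain ⟨L, e⟩ := T.ex x hx x1
  obtain ⟨L', e'⟩ := T'.ex _ ⟨y, hy, rfl⟩ y1
  replace y1 : y ≠ 1 := by simpa using y1
  exact L.both L' (e'.trans e.symm) T.ce (isConj_conj g z) n c.symm (T.zc hx) (T'.zc ⟨y, hy, rfl⟩) (i1 x hx x1)
    (i2 x hx x1) ((i1 y hy y1).cj g) (by simpa [mul_assoc] using (i2 y hy y1).cj g) (x2 _ L'.zJ c.symm).symm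
    (y2 z L.zJ c).symm (fun k hk c => ⟨mem_C.2 c, mem_C.2 (x2 k hk c)⟩)
    (fun k hk c => ⟨mem_C.2 c, mem_C.2 (y2 k hk c)⟩) (fun g hg _ _ n => (n (mem_C.1 hg.2)).elim)
    fun g hg _ _ n => (n (mem_C.1 hg.2)).elim

theorem quot (ha : a ∈ E) (hb : b ∈ E) (n1 : a ≠ 1) (n2 : b ≠ 1) (n3 : a ≠ b) (hx : x = a ∨ x = a * z)
    {G' : Type v} [Group G'] {f : centralizer ({x} : Set G) →* G'} (hf : Function.Surjective f)
    (hk : ∀ m, f m = 1 ↔ (m : G) ∈ zpowers x) (n : ¬ Iso x z) : ∃ (zM : z ∈ centralizer {x})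
    (bM : b ∈ centralizer {x}) (U' : Type v) (_ : AddCommGroup U') (_ : Module (ZMod 2) U') (_ : Finite U')
    (L : Lc (f ⟨z, zM⟩) (centralizer {f ⟨z, zM⟩}) (qOf (f ⟨z, zM⟩)) U'), T2 L (f ⟨b, bM⟩) ∧
      ¬ IsIsolatedInvolution (f ⟨z, zM⟩) ∧ (∀ m, f m * f ⟨z, zM⟩ = f ⟨z, zM⟩ * f m → m * z = z * m ∧ m * a = a * m) ∧
      ∀ m y : centralizer ({x} : Set G), f m * f y = f y * f m →
        m * y * (m : G)⁻¹ = y ∨ m * y * (m : G)⁻¹ = y * x := by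
  have := Finite.of_surjective f hf
  obtain ⟨L, -⟩ := T.ex a ha n1
  have zx : Zc (qOf z) x := hx.elim (· ▸ T.zc ha) (· ▸ T.zc' ha)
  have o : orderOf x = 2 := orderOf_eq_prime ((pow_two x).trans (L.zsq zx)) fun c => hx.elim (c ▸ n1.symm)
    fun e => T.zn ((mul_mem_cancel_left ha).1 (e ▸ c ▸ one_mem _))
  have mz := fun {y} => mem_zpowers_iff_of_orderOf_two (w := y) o
  have JM : qOf z ≤ centralizer {x} := fun j hj => mem_C.2 (zx.2 j hj)
  have cX : ∀ m, m * z = z * m → (m * x = x * m ↔ m * a = a * m) := fun m c => by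
    rcases hx with rfl | rfl
    · rfl
    · rw [← mul_assoc, mul_assoc a, ← c, ← mul_assoc, mul_left_inj]
  have q : Qt L _ f (JM L.zJ) := ⟨hf, fun m e => (mz.1 ((hk m).1 e)).elim (fun k => by rw [k]; exact Zc.one) (fun k => by rwa [k]), fun e =>
    (mz.1 ((hk _).1 e)).elim L.z1 fun e => hx.elim (fun k => T.zn ((show z = a from e.trans k) ▸ ha)) fun k => n1 (by
      simpa using (e.trans k).symm), fun m hm c => ⟨mem_C.2 c, mem_C.2 ((cX m c).1 (mem_C.1 hm))⟩,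
    fun m _ => T.ce.nz _ (isConj_conj _ _), fun j hj => ⟨1, Zc.one, by simpa using JM hj⟩, fun w _ =>
      (L.F_surj w).imp fun g k => ⟨k.1, mem_C.2 ((cX g (mem_C.1 k.1.1)).2 (mem_C.1 k.1.2)), k.2⟩⟩
  obtain ⟨F, gp, e⟩ := q.gp
  obtain ⟨U', _, _, _, L', -⟩ := gp.exists_lc fun w => (L.F_surj w).elim fun g k =>
    ⟨f ⟨g, mem_C.2 ((cX g (mem_C.1 k.1.1)).2 (mem_C.1 k.1.2))⟩, q.mem_cent.2 k.1, (e _ k.1).trans k.2⟩
  have fa : f ⟨a, JM (T.zc ha).1⟩ = 1 ∨ f ⟨a, JM (T.zc ha).1⟩ = f ⟨z, JM L.zJ⟩ := hx.imp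
    (fun k => (hk _).2 (mz.2 (.inr k.symm))) fun k => by
      rw [← mul_left_inj (f ⟨z, JM L.zJ⟩), L'.zz, ← map_mul]; exact (hk _).2 (mz.2 (.inr k.symm))
  refine ⟨JM L.zJ, JM (T.zc hb).1, U', _, _, inferInstance, L', ⟨hf.forall.2 fun m => ⟨fun k => ?_, fun k => ?_⟩,
    fun c => ?_, fun c => ?_⟩, fun i => n fun m c k => q.conj_eq (m := ⟨m, mem_C.2 c⟩) ?_,
    fun m c => ⟨mem_C.1 (q.mem_cent.1 (mem_C.2 c)).1, mem_C.1 (q.mem_cent.1 (mem_C.2 c)).2⟩, fun m y c => ?_⟩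
  · have h : ∀ m : centralizer ({x} : Set G), (m : G) ∈ E → f m = 1 ∨ f m = f ⟨z, JM L.zJ⟩ ∨
        f m = f ⟨b, JM (T.zc hb).1⟩ ∨ f m = f ⟨b, JM (T.zc hb).1⟩ * f ⟨z, JM L.zJ⟩ := fun m hm => by
      rcases T.four ha hb n1 n2 n3 hm with e | e | e | e
      · exact .inl ((hk m).2 (e ▸ one_mem _))
      · rw [show m = ⟨a, JM (T.zc ha).1⟩ from Subtype.ext e]; tauto
      · exact .inr (.inr (.inl (congrArg f (Subtype.ext e))))
      · rw [show m = ⟨b, JM (T.zc hb).1⟩ * ⟨a, JM (T.zc ha).1⟩ from Subtype.ext (e.trans (T.ec ha hb)), map_mul]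
        rcases fa with e | e <;> simp [e]
    rcases (T.za m).1 (q.zc_iff.1 k) with k | k
    · exact h m k
    · have := h (m * ⟨z, JM L.zJ⟩) k
      rw [map_mul, mul_eq_one_iff_eq_inv, mul_eq_right, ← eq_mul_inv_iff_mul_eq, mul_left_inj,
        inv_eq_of_mul_eq_one_right L'.zz] at this
      tauto
  · rcases k with e | e | e | e <;> rw [e]
    exacts [Zc.one, L'.zc_z, q.zc_iff.2 (T.zc hb), (q.zc_iff.2 (T.zc hb)).mul L'.zc_z]
  · rcases mz.1 ((hk _).1 c) with e | e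
    exacts [n2 e, hx.elim (fun k => n3 (e.trans k).symm) fun k => T.zn ((mul_mem_cancel_left ha).1 (e.trans k ▸ hb))]
  · rw [← mul_left_inj (f ⟨z, JM L.zJ⟩), L'.zz, ← map_mul] at c
    rcases mz.1 ((hk _).1 c) with e | e
    · exact T.zn ((mul_mem_cancel_left hb).1 ((show b * z = 1 from e) ▸ one_mem _))
    · exact hx.elim (fun k => T.zn ((mul_mem_cancel_left hb).1 ((show b * z = a from e.trans k) ▸ ha)))
        fun k => n3 (mul_right_cancel (e.trans k)).symm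
  · rw [map_mul, map_mul, map_inv]
    refine i.2 _ ?_
    rw [← map_inv, ← map_mul, ← map_mul, Commute, SemiconjBy, ← map_mul, ← map_mul]
    exact congrArg f (Subtype.ext k.symm)
  · have := mz.1 ((hk (y⁻¹ * (m * y * m⁻¹))).1 (by rw [map_mul, map_mul, map_mul, c]; simp))
    rwa [coe_mul, coe_inv, inv_mul_eq_one, inv_mul_eq_iff_eq_mul, eq_comm] at this

theorem fi (ha : a ∈ E) (n1 : a ≠ 1) (n : ¬ Iso (a * z) z) : Spor.IsoFi23 G := by
  obtain ⟨b, hb, n2, n3⟩ := T.other a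
  have := T2.nm (a * z)
  obtain ⟨f, hf, hk⟩ : ∃ f : centralizer {a * z} →* _ ⧸ (zpowers (a * z)).subgroupOf (centralizer {a * z}),
    Function.Surjective f ∧ ∀ m, f m = 1 ↔ (m : G) ∈ zpowers (a * z) :=
      ⟨_, QuotientGroup.mk'_surjective _, QuotientGroup.eq_one_iff⟩
  obtain ⟨zM, bM, U', _, _, _, L, T', ni, k1, k2⟩ := T.quot ha hb n1 n2 n3 (.inr rfl) hf hk n
  have aM : a ∈ centralizer {a * z} := mem_C.2 ((T.zc' ha).2 a (T.zc ha).1)
  by_cases hA : ∀ g, g * f ⟨z, zM⟩ = f ⟨z, zM⟩ * g → g * f ⟨b, bM⟩ = f ⟨b, bM⟩ * g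
  · have key : ∀ y ∈ E, y ≠ 1 → a ≠ y → (∀ m, m * (a * z) = a * z * m → m * y = y * m) → False := by
      intro y hy y1 y2 k
      have y3 : a * y ≠ 1 := fun c => y2 (mul_left_cancel ((T.sq ha).trans c.symm))
      obtain ⟨g, g1, g2, g3⟩ := T.tr a ha _ (mul_mem ha hy) n1 y3 (by simpa using y1)
      refine n fun m c _ => mul_inv_eq_iff_eq_mul.2 ?_
      have c1 : m * (a * y * z) = a * y * z * m := by
        rw [T.ec ha hy, mul_assoc y]; exact Commute.mul_right (k m c) c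
      rw [← g2, ← conj_eq_of_mem_C (mem_C.2 g1), conj_mul, cm_cj] at c1
      have c2 := cm_cj.2 (k _ c1)
      rw [← one_mul y, ← T.sq ha, mul_assoc a, ← conj_mul, g2, g3, mul_assoc a, ← mul_assoc y, T.ec hy ha,
        mul_assoc a y, ← mul_assoc y, T.ec hy ha, mul_assoc a y, T.sq hy, mul_one, T.sq ha, mul_one] at c2
      simpa [← mul_assoc, T.sq ha] using (Commute.mul_right c2 c).eq
    have h : ∀ y (hy : y ∈ E) (yM : y ∈ centralizer {a * z}), (∀ g, g * f ⟨y, yM⟩ = f ⟨y, yM⟩ * g) →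
        ∀ m, m * (a * z) = a * z * m → m * y = y * m := fun y hy yM c m hm =>
      mul_inv_eq_iff_eq_mul.1 ((k2 ⟨m, mem_C.2 hm⟩ ⟨y, yM⟩ (c _)).resolve_right fun e =>
        T.nc' hy (mul_mem hy ha) (isConj_iff.2 ⟨m, e.trans (mul_assoc _ _ _).symm⟩))
    rcases (T'.caseA hA).resolve_left ni with c | c
    · exact (key b hb n2 n3 (h b hb bM c)).elim
    · refine (key _ (mul_mem hb ha) (fun c => n3 (mul_right_cancel ((T.sq ha).trans c.symm))) (by simpa using n2)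
        (h _ (mul_mem hb ha) (mul_mem bM aM) ?_)).elim
      rwa [show (⟨b * a, mul_mem bM aM⟩ : centralizer {a * z}) = ⟨b, bM⟩ * ⟨z, zM⟩ * ⟨a * z, mem_C.2 rfl⟩ from
        Subtype.ext (by simp [T.cm ha, ← mul_assoc, mul_assoc b z z, T.zz]), map_mul,
        (hk ⟨a * z, _⟩).2 (mem_zpowers _), mul_one, map_mul]
  push Not at hA
  obtain ⟨h, h1, h2⟩ := hA
  obtain ⟨e⟩ := (T'.caseB h1 h2).resolve_left ni
  obtain ⟨h, rfl⟩ := hf h
  obtain ⟨c1, c2⟩ := k1 h h1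
  have := Spor.Fi22P.simple
  have := e.isSimpleGroup
  obtain ⟨L0, -⟩ := T.ex a ha n1
  obtain ⟨g, g1, g2⟩ := T.conj ha hb n1 n2
  refine Cfsg.Agent.S1714.result (a * z) (orderOf_eq_prime ((pow_two _).trans (T.sq' ha)) fun c =>
    T.zn ((mul_mem_cancel_left ha).1 (c ▸ one_mem _))) (qs_of hf hk ?_ (by
      rw [Nat.card_congr e.toEquiv, Spor.Fi22P.card]; norm_num)) ⟨e⟩ ⟨g, by
      rw [← conj_mul, g2, g1, mul_inv_cancel_right]
      exact ⟨mem_C.2 ((T.zc' ha).2 _ (T.zc' hb).1), by simpa using n3.symm⟩⟩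
  refine mul_mem (a := ⟨a, aM⟩) (Set.mem_of_eq_of_mem (Subtype.ext ?_) (commutator_mem_commutator (mem_top h)
    (mem_top ⟨b, bM⟩))) (L0.z_mem fun j hj => mem_C.2 ((T.zc' ha).2 j hj))
  change a = h * b * (h : G)⁻¹ * b⁻¹
  rw [(T.mv c1 ha hb n1 n2 n3 c2).resolve_left fun c => h2 (by
    rw [← map_mul, ← map_mul]; exact congrArg _ (Subtype.ext (mul_inv_eq_iff_eq_mul.1 c))), mul_inv_cancel_right]

end T3

end Cfsg.Lib.LX.O6
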