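import Cfsg.Agent.LX.O6n
import Cfsg.Agent.Local.InvolCount
import Cfsg.Agent.Known.Fi24Cent

/-! The case of a centre of order eight: the normal four-group. -/

set_option autoImplicit false

namespace Cfsg.Lib.LX.O6

open Subgroup Cfsg.Lib.Local Cfsg.Lib.Solv Cfsg.Lib.Known
open scoped commutatorElement

universe u v

variable {G : Type u} [Group G] {z a b t x y : G} {E E' : Subgroup G}
  {U : Type*} [AddCommGroup U] [Module (ZMod 2) U] {P : Rp U}

theorem dih {v : G} (xx : x * x = 1) (yy : y * y = 1) (hv : v ∈ zpowers (x * y)) :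
    IsConj y (v * y) ∨ IsConj y (v * x) := by
  obtain ⟨n, rfl⟩ := hv
  have e : ∀ k : ℤ, IsConj y ((x * y) ^ (k + k) * y) := fun k => isConj_iff.2 ⟨(x * y) ^ k, by
    have : y * (x * y)⁻¹ * y⁻¹ = x * y := by
      rw [mul_inv_rev, inv_eq_of_mul_eq_one_right xx, inv_eq_of_mul_eq_one_right yy, ← mul_assoc, yy, one_mul]
    rw [zpow_add, mul_assoc, mul_assoc, ← inv_zpow, mul_right_inj, ← mul_inv_eq_iff_eq_mul, ← conj_zpow, this]⟩
  obtain ⟨k, rfl | rfl⟩ := n.even_or_odd'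
  · exact .inl (two_mul k ▸ e k)
  · refine .inr ?_
    have := e (k + 1)
    rwa [show k + 1 + (k + 1) = 2 * k + 1 + 1 by ring, zpow_add_one, mul_assoc, mul_assoc x, yy, mul_one] at this

/-- The remaining configuration. -/
structure I3 (P : Rp U) (z : G) (E : Subgroup G) : Prop extends T3 P z E where
  is : ∀ u ∈ E, u ≠ 1 → Iso (u * z) z
  ns : ∀ u ∈ E, u ≠ 1 → ¬ Iso u z

namespace I3

variable (T : I3 P z E)
include T

theorem cj' (g : G) : I3 P (g * z * g⁻¹) (E.map (MulAut.conj g).toMonoidHom) := by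
  refine ⟨T.cj g, ?_, ?_⟩ <;> rintro _ ⟨u, hu, rfl⟩ n
  · simpa [mul_assoc] using (T.is u hu (by simpa using n)).cj g
  · exact fun c => T.ns u hu (by simpa using n) (by simpa [mul_assoc] using c.cj g⁻¹)

variable [Finite G] [Finite U]

theorem cn (ha : a ∈ E) (n1 : a ≠ 1) : centralizer {a} ≤ normalizer (E : Set G) := fun m hm => by
  obtain ⟨b, hb, n2, n3⟩ := T.other a
  have := T2.nm a
  obtain ⟨f, hf, hk⟩ : ∃ f : centralizer {a} →* _ ⧸ (zpowers a).subgroupOf (centralizer {a}),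
    Function.Surjective f ∧ ∀ m, f m = 1 ↔ (m : G) ∈ zpowers a :=
      ⟨_, QuotientGroup.mk'_surjective _, QuotientGroup.eq_one_iff⟩
  obtain ⟨zM, bM, U', _, _, _, L, T', ni, k1, k2⟩ := T.quot ha hb n1 n2 n3 (.inl rfl) hf hk (T.ns a ha n1)
  rcases (T'.caseA (hf.forall.2 fun g c => by
    rw [← mul_inv_eq_iff_eq_mul, ← mul_inv_eq_one, ← map_inv, ← map_inv, ← map_mul, ← map_mul, ← map_mul, hk]
    refine (T.mv (k1 g c).1 ha hb n1 n2 n3 (k1 g c).2).elim (fun e => ⟨0, ?_⟩) fun e => ⟨1, ?_⟩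
      <;> simp [e])).resolve_left ni with c | c
  · have k := (k2 ⟨m, hm⟩ ⟨b, bM⟩ (c _)).elim (fun e => (show m * b * m⁻¹ = b from e).symm ▸ hb)
      fun e => (show m * b * m⁻¹ = b * a from e).symm ▸ mul_mem hb ha
    have k' : m * a * m⁻¹ ∈ E := by rwa [conj_eq_of_mem_C hm]
    refine mem_normalizer_of_conj_mem fun u hu => ?_
    rcases T.four ha hb n1 n2 n3 hu with rfl | rfl | rfl | rfl
    exacts [by simp, k', k, by rw [← conj_mul]; exact mul_mem k' k]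
  · refine (T.ns a ha n1 fun m hm => T.ce.iso_of (T.zc' hb) ?_ (T.is b hb n2)).elim
    rw [← map_mul] at c
    rcases k2 ⟨m, mem_C.2 hm⟩⁻¹ (⟨b, bM⟩ * ⟨z, zM⟩) (c _) with e | e <;>
      rw [show m⁻¹ * (b * z) * m⁻¹⁻¹ = _ from e]
    exacts [T.zc' hb, (T.zc' hb).mul (T.zc ha)]

theorem nml (ha : a ∈ E) (n1 : a ≠ 1) : (E.subgroupOf (centralizer {a})).Normal :=
  ⟨fun u hu g => (mem_normalizer_iff.1 (T.cn ha n1 g.2) u).1 hu⟩

omit [Finite G] [Finite U] in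
theorem qt (ha : a ∈ E) (L : Lc z (centralizer {z} ⊓ centralizer {a}) (qOf z) U) {G' : Type v} [Group G']
    {f : centralizer ({a} : Set G) →* G'} (hf : Function.Surjective f) (hk : ∀ m, f m = 1 ↔ (m : G) ∈ E) :
    Qt L _ f (mem_C.2 (T.cm ha).symm) ∧
    ∀ c : centralizer ({a} : Set G), Zc (qOf z) c → f c = 1 ∨ f c = f ⟨z, mem_C.2 (T.cm ha).symm⟩ :=
  ⟨⟨hf, fun m e => T.zc ((hk m).1 e), fun e => T.zn ((hk _).1 e), fun m hm c => ⟨mem_C.2 c, hm⟩,
    fun m _ => T.ce.nz _ (isConj_conj _ _), fun j hj => ⟨1, Zc.one, by simpa using mem_C.2 ((T.zc ha).2 j hj)⟩,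
    fun w _ => (L.F_surj w).imp fun g k => ⟨k.1, k.1.2, k.2⟩⟩, fun c hc => ((T.za c).1 hc).imp (hk c).2 fun k => by
      rw [← mul_left_inj (f ⟨z, mem_C.2 (T.cm ha).symm⟩), ← map_mul, ← map_mul, (hk _).2 k, eq_comm, hk]
      exact Set.mem_of_eq_of_mem T.zz (one_mem _)⟩

theorem nat : P.Nat := by
  obtain ⟨a, ha, n1, -⟩ := T.other 1
  obtain ⟨L, rfl⟩ := T.ex a ha n1
  have := T.nml ha n1
  obtain ⟨q, hZ⟩ := T.qt ha L (QuotientGroup.mk'_surjective (E.subgroupOf _)) QuotientGroup.eq_one_iff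
  have n := T.ns a ha n1
  simp only [Iso, not_forall] at n
  obtain ⟨m, m1, m2, m3⟩ := n
  exact (q.ni hZ (fun j hj => mem_C.2 ((T.zc ha).2 j hj)) (m := ⟨m, mem_C.2 m1⟩) m3 rfl m2).2.2.2.2 inf_le_right

theorem half (T' : I3 P t E') (c1 : IsConj z t) (c2 : ∀ u ∈ E, u ≠ 1 → ∀ v ∈ E', v ≠ 1 → IsConj u v)
    (d : ∀ u ∈ E, u ∈ E' → u = 1) (n : t ≠ z) (tz : t * z = z * t) :
    (∀ u ∈ E', u ≠ 1 → ¬ Zc (qOf z) u) ∧ (∀ u ∈ E', ∀ v ∈ E', u ≠ 1 → v ≠ 1 → u ∈ qOf z → v ∈ qOf z → u = v) ∧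
    (∀ u ∈ E', u * t ∉ qOf z) ∧ ∃ u ∈ E', u ≠ 1 ∧ u ∈ qOf z := by
  obtain ⟨a, ha, a1, a2⟩ := T.fix' t
  obtain ⟨y, hy, y1, y2⟩ := T'.fix' z
  obtain ⟨L, e⟩ := T.ex a ha a1
  have nt : L.Nat := e ▸ T.nat
  have tq := self_mem_qOf T'.ce.ord
  have mX : ∀ {g}, g ∈ qOf t → g * z = z * g → g ∈ centralizer {z} ⊓ centralizer {a} := fun hg c =>
    ⟨mem_C.2 c, mem_C.2 (a2 _ hg c)⟩
  have ab : ∀ {u}, u ∈ E' → u ≠ 1 → u * z = z * u → ∀ {g}, g * z = z * g → g * (u * t) = u * t * g →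
      g * t = t * g := fun hu u1 c => T.ce.ab (T'.sq' hu) T'.ce.ord (Commute.mul_left c tz) tz
    ((T'.zc' hu).2 t tq) (T'.is _ hu u1)
  have h0 : ¬ Zc (qOf z) t := fun k => n (T.ce.nz t c1 k)
  have hz : z ∉ E' := fun k => T.nc ha (c2 a ha a1 z k L.z1).symm
  have h1 : ∀ u ∈ E', u ≠ 1 → ¬ Zc (qOf z) u := fun u hu u1 k => ((T.za u).1 k).elim (fun k => u1 (d u k hu))
    fun k => T.nc' ha k (by rw [mul_assoc, T.zz, mul_one]; exact c2 a ha a1 u hu u1)
  have h2 : ∀ u ∈ E', ∀ v ∈ E', u ≠ 1 → v ≠ 1 → u ∈ qOf z → v ∈ qOf z → u = v := fun u hu v hv u1 v1 uq vq =>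
    by_contra fun k => (L.in_pair uq (T'.sq hu) (L.le vq) (T'.sq hv) fun j hj c => mul_inv_eq_iff_eq_mul.1
      ((L.comm_or hj vq).resolve_right fun e => hz ((mul_mem_cancel_left hv).1
        (e ▸ (mem_normalizer_iff.1 (T'.cn hu u1 (mem_C.2 c)) v).1 hv)))).elim (h1 v hv v1)
      (h1 _ (mul_mem hv hu) fun c => k (mul_left_cancel (c.trans (T'.sq hv).symm)))
  have tu : ∀ {u}, u ∈ E' → t * (u * t) = u := fun hu => by rw [T'.cm hu, ← mul_assoc, T'.zz, one_mul]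
  have h3 : ∀ u ∈ E', u ≠ 1 → u * t ∉ qOf z := fun u hu u1 k =>
    (L.in_pair k (T'.sq' hu) (mX tq tz) T'.zz fun j hj => ab hu u1 (tu hu ▸ Commute.mul_left tz (q_cm k))
      (q_cm hj)).elim h0 (by rw [tu hu]; exact h1 u hu u1)
  have yz := (y2 z L.zJ tz.symm).symm
  have b2 : ∀ {u g}, g * t = t * g → g * (u * t) = u * t * g → g * u = u * g := fun {u g} e k => by
    simpa [mul_assoc, T'.zz] using (Commute.mul_right k e).eq
  by_cases hα : ∀ g, g * z = z * g → g * t = t * g → g * g * y = y * (g * g)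
  · have m := mX (T'.zc' hy).1 (Commute.mul_left yz tz)
    have cj : ∀ j ∈ qOf z, j * t = t * j → j * (y * t) = y * t * j := fun j hj c => Commute.mul_right (y2 j hj c) c
    have h4 : t ∉ qOf z := fun k => (L.in_pair k T'.zz m (T'.sq' hy) cj).elim
      (fun k => n (T.ce.eq_of c1 fun j hj => ab hy y1 yz (q_cm hj) (k.2 j hj)))
      (by rw [mul_assoc, T'.zz, mul_one]; exact h1 y hy y1)
    refine ⟨h1, h2, fun u hu => (em (u = 1)).elim (fun e => by rwa [e, one_mul]) (h3 u hu), y, hy, y1,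
      tu hy ▸ L.nat_pair nt ⟨mX tq tz, m, T'.zz, T'.sq' hy, (T'.zc' hy).2 t tq, fun j hj => ⟨cj j hj,
        ab hy y1 yz (q_cm hj)⟩, fun g hg c => Commute.mul_right (hα g (mem_C.1 hg.1) c) (Commute.mul_left c c),
        fun g hg c => ?_⟩ h4 (h3 y hy y1)⟩
    have := ab hy y1 yz (mem_C.1 hg.1) c
    exact Commute.mul_left this this
  push Not at hα
  obtain ⟨g, g1, g2, g3⟩ := hα
  have hy' := T'.nm g g2 y hy
  have y1' : g * y * g⁻¹ ≠ 1 := by simpa using y1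
  have ne : y ≠ g * y * g⁻¹ := fun c => g3 (Commute.mul_left (mul_inv_eq_iff_eq_mul.1 c.symm)
    (mul_inv_eq_iff_eq_mul.1 c.symm))
  have yz' : g * y * g⁻¹ * z = z * (g * y * g⁻¹) := (Commute.mul_left g1 yz).mul_left (Commute.inv_left g1)
  have y2' : ∀ j ∈ qOf z, j * t = t * j → j * (g * y * g⁻¹) = g * y * g⁻¹ * j := fun j hj c => cm_cj.2
    (y2 _ (by simpa using q_conj (Commute.inv_left g1) hj) (((Commute.inv_left g2).mul_left c).mul_left g2))
  have e3 : g * (g * y * g⁻¹) * g⁻¹ = y * (g * y * g⁻¹) := by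
    rcases T'.four hy hy' y1 y1' ne (T'.nm g g2 _ hy') with k | k | k | k
    exacts [(y1' (conj_eq_one_iff.1 k)).elim, (g3 (by nth_rw 2 [← k]; group)).elim, (ne (by simpa using k.symm)).elim, k]
  have sx : ∀ {u v}, u ∈ E' → u ≠ 1 → u * z = z * u → v ∈ E' → ∀ k ∈ centralizer {z} ⊓ centralizer {a},
      k * (u * t) = u * t * k → k * k * (v * t) = v * t * (k * k) := fun hu u1 c hv k hk e =>
    have := ab hu u1 c (mem_C.1 hk.1) e
    Commute.mul_right (T'.sq2 this hu u1 (b2 this e) hv) (Commute.mul_left this this)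
  have := L.nat_pair nt ⟨mX (T'.zc' hy).1 (Commute.mul_left yz tz), mX (T'.zc' hy').1 (Commute.mul_left yz' tz),
    T'.sq' hy, T'.sq' hy', (T'.zc' hy').2 _ (T'.zc' hy).1, fun j hj => ⟨fun c =>
      have := ab hy y1 yz (q_cm hj) c
      Commute.mul_right (y2' j hj this) this, fun c =>
      have := ab hy' y1' yz' (q_cm hj) c
      Commute.mul_right (y2 j hj this) this⟩, sx hy y1 yz hy', sx hy' y1' yz' hy⟩ (h3 y hy y1) (h3 _ hy' y1')
  rw [mul_assoc y, tu hy', ← e3] at this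
  have k := h2 _ hy' _ (T'.nm g g2 _ hy') y1' (by simpa using y1) (by
    simpa [mul_assoc] using q_conj (Commute.inv_left g1) this) this
  exact (ne (by simpa using k)).elim

theorem key {g : G} (c : g * z * g⁻¹ * z = z * (g * z * g⁻¹)) : g ∈ normalizer (E : Set G) := by_contra fun ng => by
  have hn : ∀ k, k * z = z * k → k ∈ normalizer (E : Set G) := fun k c => mem_normalizer_of_conj_mem (T.nm k c)
  have n : g * z * g⁻¹ ≠ z := fun e => ng (hn g (mul_inv_eq_iff_eq_mul.1 e))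
  have T' := T.cj' g
  have c2 : ∀ u ∈ E, u ≠ 1 → ∀ v ∈ E.map (MulAut.conj g).toMonoidHom, v ≠ 1 → IsConj u v := by
    rintro u hu u1 _ ⟨v, hv, rfl⟩ v1
    obtain ⟨k, -, rfl⟩ := T.conj hu hv u1 (by simpa using v1)
    exact (isConj_conj k u).trans (isConj_conj g _)
  have d : ∀ u ∈ E, u ∈ E.map (MulAut.conj g).toMonoidHom → u = 1 := fun u hu ⟨v, hv, e⟩ => by_contra fun u1 => by
    obtain ⟨k, k1, rfl⟩ := T.conj hu hv u1 fun c => u1 (by simpa [c] using e.symm)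
    exact ng ((mul_mem_cancel_right (hn k k1)).1 (T.cn hu u1 (mem_cent_iff_conj.2 (by simpa [mul_assoc] using e))))
  obtain ⟨r1, -, -, y, hy, y1, y2⟩ := T.half T' (isConj_conj _ _) c2 d n c
  obtain ⟨s1, s2, s3, u, hu, u1, u2⟩ := T'.half T (isConj_conj _ _).symm
    (fun u hu u1 v hv v1 => (c2 v hv v1 u hu u1).symm) (fun u hu k => d u k hu) n.symm c.symm
  obtain ⟨L, -⟩ := T.ex u hu u1
  obtain ⟨L', -⟩ := T'.ex y hy y1
  have := T.nml hu u1
  obtain ⟨q, hZ⟩ := T.qt hu L (QuotientGroup.mk'_surjective (E.subgroupOf _)) QuotientGroup.eq_one_iff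
  refine L'.nw ⟨mem_C.2 c.symm, mem_C.2 (q_cm y2).symm⟩ T.zz (by simpa using s3 1 (one_mem _)) u2 (T.sq hu)
    (s1 u hu u1) (T.cm hu) (fun j hj k hk c1 c2 => q.orb hZ (fun _ => q_conj c.symm) (fun _ => L'.pow4) (T'.zc hy) y2
      (r1 y hy y1) (mem_C.2 ((T.zc hu).2 y y2)) (fun c e => ?_) hj hk (mem_C.2 c1) (mem_C.2 c2)) fun g hg e => ?_
  · have : (c : G) ∈ E := (QuotientGroup.eq_one_iff c).1 e
    rw [← T.cm this]; exact s3 _ this
  · have := mul_inv_eq_iff_eq_mul.1 (s2 _ (T.nm g e u hu) u hu (by simpa using u1) u1 (q_conj (mem_C.1 hg.1) u2) u2)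
    exact Commute.mul_left this this

theorem normal : E.Normal := by
  obtain ⟨a, ha, n1, -⟩ := T.other 1
  obtain ⟨b, hb, n2, n3⟩ := T.other a
  have hn : centralizer {z} ≤ normalizer (E : Set G) := fun k c => mem_normalizer_of_conj_mem (T.nm k (mem_C.1 c))
  have hJ := (qOf_le z).trans hn
  have k1 : ∀ x, IsConj a x → x ∈ normalizer (E : Set G) → x ∈ E := fun x c hx => by
    obtain ⟨g, rfl⟩ := isConj_iff.1 c
    obtain ⟨m, hm, e⟩ := T.ce.into1 hJ (by rw [conj_mul, T.sq ha]; group) hx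
    obtain ⟨s, hs, e'⟩ := T.ce.into1 hJ (r := (m * g)⁻¹ * z * (m * g)⁻¹⁻¹) (by rw [conj_mul, T.zz]; group)
      (T.cn ha n1 (mem_C.2 (by simpa [mul_assoc] using cm_cj.1 (cm_cj.1 e.symm))))
    have := T.key (g := s * (m * g)⁻¹) (by simpa only [mul_inv_rev, mul_assoc] using e')
    rw [mul_mem_cancel_left hs, inv_mem_iff, mul_mem_cancel_left hm] at this
    exact (mem_normalizer_iff.1 this a).1 ha
  have k2 : ∀ u ∈ E, u ≠ 1 → centralizer {u * z} ≤ normalizer (E : Set G) := fun u hu u1 => by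
    have m : ∀ v ∈ E, v ∈ normalizer ((oddCore (centralizer ({u * z} : Set G))).map (Subgroup.subtype _) : Set G) :=
      fun v hv => mem_normalizer_of_conj_mem (by
        rintro _ ⟨y, hy, rfl⟩
        exact ⟨_, (inferInstance : (oddCore _).Normal).conj_mem y hy ⟨v, mem_C.2 ((T.zc' hu).2 v (T.zc hv).1)⟩, rfl⟩)
    rw [← range_subtype (centralizer {u * z}), MonoidHom.range_eq_map, ← Bender.oddCore_sup_centralizer_of_isolated
      (Ce.zst T.ce.ord ((T.zc' hu).2 z (self_mem_qOf T.ce.ord)) (T.is u hu u1)), Subgroup.map_sup]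
    refine sup_le (Bender.le_of_four_group (T.ord ha n1) (T.ord hb n2) n3 (T.ec ha hb) (by
      rw [card_subtype]; exact odd_card_oddCore _) (m a ha) (m b hb) fun v hv o => inf_le_right.trans
      (T.cn ((closure_le _).2 (by rintro _ (rfl | rfl) <;> assumption) hv) fun c => by simp [c] at o)) ?_
    rintro _ ⟨y, hy, rfl⟩
    exact hn (mem_C.2 (congrArg Subtype.val (mem_C.1 hy)))
  have k3 : ∀ g, g * a * g⁻¹ ∈ E := fun g => by
    have aa : g * a * g⁻¹ * (g * a * g⁻¹) = 1 := by rw [conj_mul, T.sq ha]; group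
    obtain ⟨v, hv, o, c1, c2⟩ := exists_invol_commute_of_not_isConj T.ce.ord
      (((MulAut.conj g).orderOf_eq a).trans (T.ord ha n1)) fun c => T.nc ha (c.trans (isConj_conj g a).symm)
    have v1 : v ≠ 1 := fun c => by simp [c] at o
    refine k1 _ (isConj_conj g a) ?_
    rcases dih T.zz aa hv with c | c
    · have s1 : g⁻¹ * v * g * a ∈ E := k1 _ (((isConj_conj g a).trans c).trans (isConj_iff.2 ⟨g⁻¹, by group⟩))
        (T.cn ha n1 (mem_C.2 (Commute.mul_left (cm_cj.1 c2.symm) rfl)))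
      rw [mul_mem_cancel_right ha] at s1
      obtain ⟨k, -, e⟩ := T.conj ha s1 n1 (by simpa [mul_eq_one_iff_eq_inv] using v1)
      exact T.cn (k1 v (isConj_iff.2 ⟨g * k, by rw [mul_assoc g, mul_inv_rev, ← mul_assoc, mul_assoc g, e]; group⟩)
        (hn (mem_C.2 c1.symm))) v1 (mem_C.2 c2)
    · have s1 := k1 _ ((isConj_conj g a).trans c) (hn (mem_C.2 (Commute.mul_left c1.symm rfl)))
      refine k2 _ s1 (fun e => n1 ?_) (mem_C.2 (by rw [mul_assoc v, T.zz, mul_one]; exact c2))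
      simpa [e] using c
  refine ⟨fun u hu g => ?_⟩
  by_cases u1 : u = 1
  · simp [u1]
  obtain ⟨k, -, rfl⟩ := T.conj ha hu n1 u1
  simpa [mul_assoc] using k3 (g * k)

end I3

end Cfsg.Lib.LX.O6
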