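import Cfsg.Agent.LX.O6o

/-! The case of a centre of order eight: the quotient by the normal four-group, and the conclusion. -/

set_option autoImplicit false

namespace Cfsg.Lib.LX.O6

open Subgroup Cfsg.Lib.Local Cfsg.Lib.Solv Cfsg.Lib.Known
open scoped commutatorElement

universe u v

variable {G : Type u} [Group G] [Finite G] {z a b t x y : G} {E : Subgroup G}
  {U : Type*} [AddCommGroup U] [Module (ZMod 2) U] [Finite U] {P : Rp U}

theorem nonempty_aut {S : Type*} [Group S] {N : Subgroup G} [N.Normal] (e : N ≃* S)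
    (hS : Nat.card (Out S) ≤ N.index) (hc : ∀ g : G, (∀ n ∈ N, g * n = n * g) → g = 1) :
    Nonempty (G ≃* MulAut S) := by
  have : Finite S := Finite.of_equiv _ e.toEquiv
  let φ : G →* MulAut S := (MulAut.congr e).toMonoidHom.comp MulAut.conjNormal
  have h1 : Function.Injective φ := (MulAut.congr e).injective.comp
    ((injective_iff_map_eq_one _).mpr fun g hg => hc g fun n hn => mul_inv_eq_iff_eq_mul.mp
      (by simpa using congrArg Subtype.val (DFunLike.congr_fun hg ⟨n, hn⟩)))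
  refine ⟨MulEquiv.ofBijective φ (h1.bijective_of_nat_card_le ?_)⟩
  rw [card_eq_card_quotient_mul_card_subgroup (Inn S), ← N.index_mul_card, Nat.card_congr e.toEquiv]
  exact Nat.mul_le_mul hS (Nat.card_le_card_of_surjective _ (MonoidHom.rangeRestrict_surjective _))

theorem I3.aut (T : I3 P z E) [E.Normal] (fin : ∀ y, y * z = z * y →
    (∀ j ∈ qOf z, Zc (qOf z) (y * j * y⁻¹ * j⁻¹)) → y ∈ qOf z) {K : Type*} [Field K] [Fintype K]
    (hK : Fintype.card K = 4) : Nonempty (G ⧸ E ≃* MulAut (PSU 6 K 2)) := by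
  obtain ⟨a, ha, n1, -⟩ := T.other 1
  obtain ⟨b, hb, n2, n3⟩ := T.other a
  obtain ⟨L, -⟩ := T.ex a ha n1.symm.symm
  have JM : qOf z ≤ centralizer {a} := fun j hj => mem_C.2 ((T.zc ha).2 j hj)
  obtain ⟨q, hZ⟩ := T.qt ha L ((QuotientGroup.mk' E).subgroupMap_surjective _)
    fun _ => Subtype.ext_iff.trans (QuotientGroup.eq_one_iff _)
  have n := T.ns a ha n1
  simp only [Iso, not_forall] at n
  obtain ⟨m, m1, m2, m3⟩ := n
  have p := q.pr hZ (m := ⟨m, mem_C.2 m1⟩) m3 m2
  obtain ⟨-, sm, Φ, H, c, -⟩ := q.lx hZ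
  obtain ⟨⟨e⟩, i⟩ := H.wc p hK
  obtain ⟨⟨e'⟩, -⟩ := H.wc p Class.card_GF4
  rw [c inf_le_right] at i
  have ct := p.cent_nc sm
  generalize hN : normalClosure {(QuotientGroup.mk' E).subgroupMap (centralizer {a})
    ⟨z, mem_C.2 (T.cm ha).symm⟩} = N at *
  have eq : N.map (Subgroup.subtype _) = normalClosure {QuotientGroup.mk' E z} := by
    subst hN
    refine le_antisymm (map_le_iff_le_comap.2 (normalClosure_le_normal (by
      rintro _ rfl; exact mem_nc _))) ((closure_le _).2 fun x hx => ?_)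
    obtain ⟨_, rfl, k⟩ := Group.mem_conjugatesOfSet_iff.1 hx
    obtain ⟨g, rfl⟩ := isConj_iff.1 k
    obtain ⟨g, rfl⟩ := QuotientGroup.mk'_surjective E g
    obtain ⟨k, k1, k2⟩ := T.conj ha (‹E.Normal›.conj_mem' a ha g) n1 (by simpa [mul_eq_one_iff_eq_inv] using n1)
    refine ⟨_, mem_nc_of_isConj (isConj_conj ((QuotientGroup.mk' E).subgroupMap _ ⟨g * k, mem_cent_iff_conj.2 (by
      rw [mul_inv_rev, mul_assoc g, ← mul_assoc, mul_assoc g, k2]; group)⟩) _), ?_⟩
    change QuotientGroup.mk' E (g * k) * QuotientGroup.mk' E z * (QuotientGroup.mk' E (g * k))⁻¹ = _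
    rw [← map_inv, ← map_inv, ← map_mul, ← map_mul, ← map_mul, ← map_mul, mul_assoc g, k1]
    exact congrArg _ (by group)
  have nm : (N.map (Subgroup.subtype _)).Normal := eq ▸ inferInstance
  have k0 : ∀ g ∈ centralizer {a}, QuotientGroup.mk' E g ∈ centralizer (N.map (Subgroup.subtype _) : Set (G ⧸ E)) →
      g ∈ E := fun g hg k => (QuotientGroup.eq_one_iff g).1 (congrArg Subtype.val (mem_bot.1 (ct.le
        (show (⟨_, g, hg, rfl⟩ : (centralizer {a}).map (QuotientGroup.mk' E)) ∈ _ from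
          fun n hn => Subtype.ext (k _ ⟨n, hn, rfl⟩)))))
  refine (nonempty_aut ((equivMapOfInjective N _ (subtype_injective _)).symm.trans e') ?_
    ((QuotientGroup.mk'_surjective E).forall.2 fun y k => ?_)).map (·.trans (MulAut.congr (e'.symm.trans e)))
  · rw [u62_out, index_map_subtype,
      Nat.eq_of_mul_eq_mul_right (by decide) (i.trans (by decide : _ = 2 * 25920)),
      index_map_eq _ (QuotientGroup.mk'_surjective E) (by
        rw [QuotientGroup.ker_mk']; exact fun u hu => mem_C.2 (T.ec hu ha))]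
    obtain ⟨g, -, g1, g2⟩ := T.tr a ha b hb n1 n2 n3
    have i0 := (centralizer ({a} : Set G)).index_ne_zero_of_finite
    have i1 : (centralizer ({a} : Set G)).index ≠ 1 := fun c =>
      n3 ((conj_eq_of_mem_C ((index_eq_one.1 c).ge (mem_top g))).symm.trans g1)
    have i2 : (centralizer ({a} : Set G)).index ≠ 2 := fun c => n2 (by
      have := conj_eq_of_mem_C (mul_self_mem_of_index_two c g)
      rwa [mul_inv_rev, mul_assoc g, ← mul_assoc, mul_assoc g, g1, g2, mul_eq_left] at this)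
    omega
  have k' : QuotientGroup.mk' E y ∈ centralizer (N.map (Subgroup.subtype _) : Set (G ⧸ E)) := fun n hn => (k n hn).symm
  have yz : y * z = z * y := mul_inv_eq_iff_eq_mul.1 (T.ce.nz _ (isConj_conj y z) ((T.za _).2 (.inr
    ((QuotientGroup.eq_one_iff _).1 (show QuotientGroup.mk' E _ = 1 by
      rw [map_mul, map_mul, map_mul, k _ (eq.ge (mem_nc _)), map_inv, mul_inv_cancel_right, ← map_mul, T.zz,
        map_one])))))
  refine (QuotientGroup.eq_one_iff y).2 (k0 y (JM (fin y yz fun j hj => T.zc (k0 _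
    (JM (mul_mem (q_conj yz hj) (inv_mem hj))) ?_))) k')
  rw [mul_assoc, mul_assoc, ← mul_assoc j, map_mul, map_mul, map_mul, map_inv, map_inv]
  exact mul_mem k' (Normal.conj_mem inferInstance _ (inv_mem k') _)

theorem T3.main (T : T3 P z E) (fin : ∀ y, y * z = z * y →
    (∀ j ∈ qOf z, Zc (qOf z) (y * j * y⁻¹ * j⁻¹)) → y ∈ qOf z) {K : Type*} [Field K] [Fintype K]
    (hK : Fintype.card K = 4) : centralizer {z} ⊔ oddCore G = ⊤ ∨ Spor.IsoFi23 G ∨ ∃ (W : Subgroup G)
      (_ : W.Normal), Nat.card W = 4 ∧ (∀ w ∈ W, w ^ 2 = 1) ∧ Nonempty (G ⧸ W ≃* MulAut (PSU 6 K 2)) := by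
  by_cases i2 : ∀ u ∈ E, u ≠ 1 → Iso (u * z) z
  swap
  · push Not at i2
    obtain ⟨u, hu, u1, n⟩ := i2
    exact .inr (.inl (T.fi hu u1 n))
  by_cases i1 : ∀ u ∈ E, u ≠ 1 → Iso u z
  · exact .inl ((sup_comm _ _).trans (Bender.oddCore_sup_centralizer_of_isolated (T.iso i1 i2)))
  have T' : I3 P z E := ⟨T, i2, fun u hu u1 c => i1 fun v hv v1 => by
    obtain ⟨g, g1, rfl⟩ := T.conj hu hv u1 v1
    simpa [g1] using c.cj g⟩
  have := T'.normal
  exact .inr (.inr ⟨E, this, T.card, fun w hw => (pow_two w).trans (T.sq hw), T'.aut fin hK⟩)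

end Cfsg.Lib.LX.O6
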