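import Cfsg.Agent.LX.O6p

/-! The case of a centre of order eight: translation of the hypotheses. -/

set_option autoImplicit false

namespace Cfsg.Lib.LX.O6

open Subgroup Cfsg.Lib.Local Cfsg.Lib.Solv Cfsg.Lib.Known
open scoped commutatorElement

universe u v

variable {G : Type u} [Group G] {z c a b g x y : G} {V : Subgroup G} {φ : centralizer ({z} : Set G) →* W6}

theorem Zc.inv {J : Subgroup G} (h : Zc J x) : Zc J x⁻¹ := ⟨inv_mem h.1, fun j hj => Commute.inv_right (h.2 j hj)⟩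

theorem cmul (c x y : G) : c * (x * y) * c⁻¹ = c * x * c⁻¹ * (c * y * c⁻¹) := conj_mul.symm

theorem card_half {J W : Subgroup G} (h : ∀ x, Zc J x ↔ x ∈ W ∨ x * z ∈ W) (n : z ∉ W) (zz : z * z = 1) :
    Nat.card (center J) = 2 * Nat.card W := by
  have l : W ≤ (center J).map J.subtype := fun x hx =>
    ⟨⟨x, ((h x).2 (.inl hx)).1⟩, (zc_center _).2 ((h x).2 (.inl hx)), rfl⟩
  have hz := (h z).2 (.inr (zz ▸ one_mem _))
  rw [← card_subtype, ← (W.subgroupOf _).index_mul_card, Nat.card_congr (subgroupOfEquivOfLe l).toEquiv,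
    index_eq_two_iff.2 ⟨⟨z, ⟨z, hz.1⟩, (zc_center _).2 hz, rfl⟩, ?_⟩]
  rintro ⟨_, x, hx, rfl⟩
  exact ((h x).1 ((zc_center _).1 hx)).elim (fun k => .inr ⟨k, fun c => n ((mul_mem_cancel_left k).1 c)⟩)
    fun k => .inl ⟨k, fun c => n ((mul_mem_cancel_left (show (x : G) ∈ W from c)).1 k)⟩

/-- The hypotheses of the theorem. -/
structure Hy (z c : G) (V : Subgroup G) (φ : centralizer ({z} : Set G) →* W6) : Prop where
  ord : orderOf z = 2
  cz : c * z = z * c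
  c3 : c * c * c = 1
  sur : Function.Surjective φ
  ker : ∀ g, φ g = 1 ↔ (g : G) ∈ qOf z ∨ g * c ∈ qOf z ∨ g * (c * c) ∈ qOf z
  card : Nat.card V = 4
  za : ∀ x, Zc (qOf z) x ↔ x ∈ V ∨ x * z ∈ V
  zn : z ∉ V
  sq : ∀ x ∈ qOf z, x * x ∈ zpowers z
  zsq : ∀ x, Zc (qOf z) x → x * x = 1
  idx : (center (qOf z)).index = 2 ^ 8
  cen : centralizer (pCore 2 (centralizer ({z} : Set G)) : Set (centralizer ({z} : Set G))) ≤
      pCore 2 (centralizer ({z} : Set G))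
  fix : ∀ j ∈ qOf z, c * j * c⁻¹ = j → j = 1 ∨ j = z

namespace Hy

variable (h : Hy z c V φ)
include h

theorem zz : z * z = 1 := by rw [← pow_two, ← h.ord, pow_orderOf_eq_one]

theorem z1 : z ≠ 1 := fun e => h.zn (e ▸ one_mem _)

theorem zc_z : Zc (qOf z) z := (h.za z).2 (.inr (h.zz ▸ one_mem _))

theorem s3 (x : G) : c * (c * (c * x * c⁻¹) * c⁻¹) * c⁻¹ = x := by
  rw [show c * (c * (c * x * c⁻¹) * c⁻¹) * c⁻¹ = c * c * c * x * (c * c * c)⁻¹ by group, h.c3]; group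

theorem sz : c * z * c⁻¹ = z := by rw [h.cz, mul_inv_cancel_right]

/-- The commutator of the centre with `c`. -/
def E : Subgroup G where
  carrier := {x | ∃ y, Zc (qOf z) y ∧ x = y * (c * y * c⁻¹)}
  one_mem' := ⟨1, Zc.one, by simp⟩
  mul_mem' := by
    rintro _ _ ⟨x, hx, rfl⟩ ⟨y, hy, rfl⟩
    exact ⟨_, hx.mul hy, by rw [← conj_mul]; exact Commute.mul_mul_mul_comm (hy.2 _ (q_conj h.cz hx.1)) _ _⟩
  inv_mem' := by
    rintro _ ⟨x, hx, rfl⟩
    exact ⟨x, hx, inv_eq_of_mul_eq_one_right (h.zsq _ (hx.mul (zc_conj h.cz hx)))⟩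

theorem zc (ha : a ∈ h.E) : Zc (qOf z) a := by
  obtain ⟨y, hy, rfl⟩ := ha; exact hy.mul (zc_conj h.cz hy)

theorem zE : z ∉ h.E := fun ⟨y, hy, e⟩ => by
  have e1 : c * y * c⁻¹ = y * z := by rw [e, ← mul_assoc y, h.zsq y hy, one_mul]
  have e2 : c * (y * z) * c⁻¹ = y := by rw [← conj_mul, e1, h.sz, mul_assoc, h.zz, mul_one]
  have := h.s3 y
  rw [e1, e2, e1, mul_eq_left] at this
  exact h.z1 this

theorem zaE (x : G) : Zc (qOf z) x ↔ x ∈ h.E ∨ x * z ∈ h.E := by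
  refine ⟨fun k => ?_, fun k => k.elim h.zc fun k => by simpa [mul_assoc, h.zz] using (h.zc k).mul h.zc_z⟩
  have k1 := zc_conj h.cz k
  have m : x * (x * (c * x * c⁻¹ * (c * (c * x * c⁻¹) * c⁻¹))) ∈ h.E :=
    ⟨_, k1, by rw [← mul_assoc x, h.zsq x k, one_mul]⟩
  have k2 := k1.mul (zc_conj h.cz k1)
  refine (h.fix _ (k.mul k2).1 ?_).imp (fun e => by rwa [e, mul_one] at m) fun e => by rwa [e] at m
  rw [cmul c x, cmul c (c * x * c⁻¹), h.s3, ← mul_assoc _ _ x, k.2 _ k2.1]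

theorem s2 (ha : a ∈ h.E) : c * (c * a * c⁻¹) * c⁻¹ = a * (c * a * c⁻¹) := by
  obtain ⟨y, hy, rfl⟩ := ha
  rw [cmul c y, cmul c (c * y * c⁻¹), h.s3, mul_assoc y, ← mul_assoc (c * y * c⁻¹), h.zsq _ (zc_conj h.cz hy), one_mul,
    hy.2 _ (zc_conj h.cz (zc_conj h.cz hy)).1]

theorem act {k : centralizer ({z} : Set G)} (e : φ k = 1) : (k : G) ∈ qOf z ∨
    (∀ y, Zc (qOf z) y → k * y * (k : G)⁻¹ = c * y * c⁻¹) ∨
    ∀ y, Zc (qOf z) y → k * y * (k : G)⁻¹ = c * (c * y * c⁻¹) * c⁻¹ := by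
  refine ((h.ker k).1 e).imp_right fun e => e.symm.imp (fun e y hy => ?_) fun e y hy => ?_
  · nth_rw 1 [← h.s3 y]
    rw [show k * (c * (c * (c * y * c⁻¹) * c⁻¹) * c⁻¹) * (k : G)⁻¹ = k * (c * c) * (c * y * c⁻¹) * (k * (c * c))⁻¹ by
      group, (zc_conj h.cz hy).2 _ e, mul_inv_cancel_right]
  · nth_rw 1 [← h.s3 y]
    rw [show k * (c * (c * (c * y * c⁻¹) * c⁻¹) * c⁻¹) * (k : G)⁻¹ = k * c * (c * (c * y * c⁻¹) * c⁻¹) * (k * c)⁻¹ by
      group, (zc_conj h.cz (zc_conj h.cz hy)).2 _ e, mul_inv_cancel_right]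

theorem φc : φ ⟨c, mem_C.2 h.cz⟩ = 1 := (h.ker _).2 (.inr (.inr (by rw [← mul_assoc, h.c3]; exact one_mem _)))

theorem nm (hg : g * z = z * g) (ha : a ∈ h.E) : g * a * g⁻¹ ∈ h.E := by
  obtain ⟨y, hy, rfl⟩ := ha
  have k := zc_conj hg hy
  rw [← conj_mul, show g * (c * y * c⁻¹) * g⁻¹ = g * c * g⁻¹ * (g * y * g⁻¹) * (g * c * g⁻¹)⁻¹ by group]
  rcases h.act (k := ⟨g, mem_C.2 hg⟩ * ⟨c, mem_C.2 h.cz⟩ * ⟨g, mem_C.2 hg⟩⁻¹) (by
    rw [map_mul, map_mul, h.φc, map_inv, mul_one, mul_inv_cancel]) with e | e | e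
  · rw [k.2 (g * c * g⁻¹) e, mul_inv_cancel_right, h.zsq _ k]; exact one_mem _
  · exact ⟨_, k, congrArg _ (e _ k)⟩
  · have k2 := zc_conj h.cz (zc_conj h.cz k)
    exact ⟨_, k2, by rw [h.s3, k.2 _ k2.1]; exact congrArg _ (e _ k)⟩

theorem mvd (ha : a ∈ h.E) (n : a ≠ 1) : a ≠ c * a * c⁻¹ := fun e =>
  (h.fix a (h.zc ha).1 e.symm).elim n fun k => h.zE (k ▸ ha)

theorem fp (ha : a ∈ h.E) (n : a ≠ 1) : IsFourPair a (c * a * c⁻¹) :=
  ⟨h.zsq _ (h.zc ha), h.zsq _ (zc_conj h.cz (h.zc ha)), (h.zc ha).2 _ (zc_conj h.cz (h.zc ha)).1, n,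
    by simpa using n, h.mvd ha n⟩

theorem cardE : Nat.card h.E = 4 := by
  have := card_half h.zaE h.zE h.zz
  rw [card_half h.za h.zn h.zz, h.card] at this
  omega

theorem four (ha : a ∈ h.E) (n : a ≠ 1) (hx : x ∈ h.E) :
    x = 1 ∨ x = a ∨ x = c * a * c⁻¹ ∨ x = a * (c * a * c⁻¹) :=
  (h.fp ha n).mem_iff.1 ((h.fp ha n).eq_four h.cardE ha (h.nm h.cz ha) ▸ hx)

theorem tr (ha : a ∈ h.E) (hb : b ∈ h.E) (n1 : a ≠ 1) (n2 : b ≠ 1) (n3 : a ≠ b) :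
    ∃ g : centralizer ({z} : Set G), φ g = 1 ∧ g * a * (g : G)⁻¹ = b ∧ g * b * (g : G)⁻¹ = a * b := by
  rcases h.four ha n1 hb with rfl | rfl | rfl | rfl
  exacts [(n2 rfl).elim, (n3 rfl).elim, ⟨_, h.φc, rfl, h.s2 ha⟩, ⟨⟨c, mem_C.2 h.cz⟩ * ⟨c, mem_C.2 h.cz⟩,
    by rw [map_mul, h.φc, mul_one], by simpa [mul_assoc] using h.s2 ha, by
      rw [← mul_assoc a a, h.zsq a (h.zc ha), one_mul, ← h.s2 ha]
      simpa [mul_assoc] using congrArg (fun x => c * x * c⁻¹) (h.s3 a)⟩]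

theorem cnj (ha : a ∈ h.E) (hb : b ∈ h.E) (n1 : a ≠ 1) (n2 : b ≠ 1) :
    ∃ g : centralizer ({z} : Set G), φ g = 1 ∧ g * a * (g : G)⁻¹ = b := by
  by_cases n : a = b
  · exact ⟨1, map_one _, by simp [n]⟩
  · exact (h.tr ha hb n1 n2 n).imp fun g k => ⟨k.1, k.2.1⟩

theorem exE : ∃ a ∈ h.E, a ≠ 1 := by
  by_contra! k
  simpa [(eq_bot_iff_forall _).2 k] using h.cardE

theorem rel {Y : Subgroup G} (hY : Y ≤ centralizer {z}) (hx : Zc (qOf z) x) :
    (centralizer {x}).relIndex Y ≤ 3 := by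
  obtain ⟨a, ha, n⟩ := h.exE
  have k : ∀ u ∈ h.E, ∃ l : List G, l.length ≤ 3 ∧ ∀ g ∈ Y, g * u * g⁻¹ ∈ l := fun u hu => by
    by_cases u1 : u = 1
    · exact ⟨[1], by simp, by simp [u1]⟩
    · exact ⟨[_, _, _], le_rfl, fun g hg => by
        simpa only [List.mem_cons, List.not_mem_nil, or_false] using (h.four ha n (h.nm (mem_C.1 (hY hg)) hu)).resolve_left
          (by simpa using u1)⟩
  rcases (h.zaE x).1 hx with e | e <;> obtain ⟨l, k1, k2⟩ := k _ e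
  · exact (relIndex_le l k2).trans k1
  · refine (relIndex_le (l.map (· * z)) fun g hg => List.mem_map.2 ⟨_, k2 g hg, ?_⟩).trans (by simpa using k1)
    rw [← conj_mul, conj_eq_of_mem_C (hY hg), mul_assoc, h.zz, mul_one]

theorem kerX (ha : a ∈ h.E) (n : a ≠ 1) {g : centralizer ({z} : Set G)} (hg : g * a = a * g) (e : φ g = 1) :
    (g : G) ∈ qOf z := by
  have k := mul_inv_eq_iff_eq_mul.2 hg
  rcases h.act e with e | e | e
  exacts [e, (h.mvd ha n (k.symm.trans (e _ (h.zc ha)))).elim, (h.mvd ha n (by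
    rw [e _ (h.zc ha)] at k; nth_rw 1 [← h.s3 a, k])).elim]

theorem surX (ha : a ∈ h.E) (n : a ≠ 1) (w : W6) : ∃ g : centralizer ({z} : Set G), g * a = a * g ∧ φ g = w := by
  obtain ⟨g, rfl⟩ := h.sur w
  obtain ⟨k, k1, k2⟩ := h.cnj ha (h.nm (mem_C.1 (inv_mem g.2)) ha) n (by simpa [mul_eq_one_iff_eq_inv] using n)
  refine ⟨g * k, mul_inv_eq_iff_eq_mul.1 ?_, by rw [map_mul, k1, mul_one]⟩
  rw [coe_mul, mul_inv_rev, mul_assoc (g : G), ← mul_assoc, mul_assoc (g : G), k2]; group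

variable [Finite G]

theorem inn {w : W6} (hw : w ∈ commutator W6) :
    ∃ g : centralizer ({z} : Set G), (∀ u ∈ h.E, g * u = u * g) ∧ φ g = w := by
  obtain ⟨a, ha, n⟩ := h.exE
  obtain ⟨g, hg, e⟩ := le_of_index ((Nat.le_of_dvd (Nat.pos_of_ne_zero index_ne_zero_of_finite) (index_map_dvd _
    (f := φ.comp (inclusion (inf_le_left (b := centralizer {a})))) fun w => (h.surX ha n w).elim fun g k =>
      ⟨⟨g, g.2, mem_C.2 k.1⟩, k.2⟩)).trans (h.rel inf_le_left (zc_conj h.cz (h.zc ha)))) hw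
  refine ⟨_, fun u hu => ?_, e⟩
  rcases h.four ha n hu with rfl | rfl | rfl | rfl
  exacts [by simp, mem_C.1 g.2.2, mem_C.1 hg, Commute.mul_right (mem_C.1 g.2.2) (mem_C.1 hg)]

theorem lc (ha : a ∈ h.E) (n : a ≠ 1) : ∃ (U : Type u) (_ : AddCommGroup U) (_ : Module (ZMod 2) U) (_ : Finite U),
    Nonempty (Lc z (centralizer {z} ⊓ centralizer {a}) (qOf z) U) := by
  obtain ⟨U, _, _, _, L, -⟩ := lc_of (X := centralizer {z} ⊓ centralizer {a}) h.ord φ inf_le_left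
    (fun j hj => ⟨qOf_le z hj, mem_C.2 ((h.zc ha).2 j hj)⟩) (fun g hg => h.kerX ha n (mem_C.1 hg.2))
    (fun g hg => (h.ker g).2 (.inl hg)) (fun w => (h.surX ha n w).imp fun g k => ⟨⟨g.2, mem_C.2 k.1⟩, k.2⟩)
    h.sq h.zsq h.idx h.cen fun g hg e x hx => .inl (mul_inv_eq_iff_eq_mul.2 (by
      obtain ⟨k, k1, k2⟩ := h.inn e
      have m := h.kerX ha n (g := k⁻¹ * g) ((Commute.inv_left (k1 a ha)).mul_left (mem_C.1 hg.2)) (by simp [k2])
      have k3 : ∀ u ∈ h.E, g * u = u * g := fun u hu => by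
        simpa using (Commute.mul_left (k1 u hu) ((h.zc hu).2 _ m)).eq
      refine ((h.zaE x).1 hx).elim (k3 x) fun c => ?_
      simpa [mul_assoc, h.zz] using (Commute.mul_right (k3 _ c) (mem_C.1 g.2)).eq))
  exact ⟨U, _, _, inferInstance, ⟨L⟩⟩

variable {U : Type*} [AddCommGroup U] [Module (ZMod 2) U] [Finite U]

theorem t3 (ha : a ∈ h.E) (n : a ≠ 1) (L : Lc z (centralizer {z} ⊓ centralizer {a}) (qOf z) U) :
    T3 L.toRp z h.E := by
  refine ⟨⟨h.ord, fun g k => (mem_qOf_coe ⟨g, mem_C.2 (k z L.zJ).symm⟩).2 (h.cen fun j hj =>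
    Subtype.ext (k j ((mem_qOf_coe j).2 hj))), L.nz φ h.sur (fun x e x4 => ?_) fun _ => h.rel le_rfl⟩, h.cardE, h.zaE,
    h.zE, fun _ c _ => h.nm c, fun u hu v hv n1 n2 n3 => (h.tr hu hv n1 n2 n3).elim fun g k => ⟨g, mem_C.1 g.2, k.2⟩,
    fun u hu u1 => ?_⟩
  · have k : ∀ d : G, d * z = z * d → d * d * d = 1 → x * d ∈ qOf z → (x : G) ∈ qOf z := fun d d1 d2 d3 => by
      have := mul_mem (mul_mem d3 (q_conj (Commute.inv_left d1) d3)) (q_conj (Commute.inv_left (Commute.mul_left d1 d1)) d3)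
      rw [show x * d * (d⁻¹ * (x * d) * d⁻¹⁻¹) * ((d * d)⁻¹ * (x * d) * (d * d)⁻¹⁻¹) = x⁻¹ * x ^ 4 * (d * d * d) by
        simp [pow_succ, mul_assoc], d2, x4] at this
      simpa using this
    rcases (h.ker x).1 e with e | e | e
    exacts [e, k c h.cz h.c3 e, k _ (Commute.mul_left h.cz h.cz) (by
      rw [show c * c * (c * c) * (c * c) = c * c * c * (c * c * c) by simp only [mul_assoc], h.c3, mul_one]) e]
  · obtain ⟨g, -, rfl⟩ := h.cnj ha hu n u1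
    have : ∀ t, g * z * (g : G)⁻¹ = t → ∃ L' : Lc t (centralizer {t} ⊓ centralizer {g * a * (g : G)⁻¹}) (qOf t) U,
        L'.toRp = L.toRp := by
      rintro _ rfl
      exact ⟨L.cj g (fun x => by rw [mem_inf, mem_inf, mem_C, mem_C, mem_C, mem_C, cm_cj, cm_cj]) fun _ => mem_q_cj, rfl⟩
    exact this z (conj_eq_of_mem_C g.2)

theorem fin (ha : a ∈ h.E) (L : Lc z (centralizer {z} ⊓ centralizer {a}) (qOf z) U) (y : G) (yz : y * z = z * y)
    (hy : ∀ j ∈ qOf z, Zc (qOf z) (y * j * y⁻¹ * j⁻¹)) : y ∈ qOf z := by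
  let D : Subgroup G :=
    { carrier := {g | g * z = z * g ∧ ∀ j ∈ qOf z, Zc (qOf z) (g * j * g⁻¹ * j⁻¹)}
      one_mem' := ⟨by simp, by simp [Zc.one]⟩
      mul_mem' := fun {g k} hg hk => ⟨Commute.mul_left hg.1 hk.1, fun j hj => by
        simpa [mul_assoc] using (zc_conj hg.1 (hk.2 j hj)).mul (hg.2 j hj)⟩
      inv_mem' := fun {g} hg => ⟨Commute.inv_left hg.1, fun j hj => by
        simpa [mul_assoc] using (hg.2 _ (q_conj (Commute.inv_left hg.1) hj)).inv⟩ }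
  have JD : qOf z ≤ D := fun k hk => ⟨q_cm hk, fun j hj => (L.comm_or hk hj).elim (fun e => by simp [e, Zc.one])
    fun e => by rw [e, q_cm hj, mul_inv_cancel_right]; exact h.zc_z⟩
  have yD : y ∈ D := ⟨yz, hy⟩
  have cD : c ∉ D := fun k => by
    obtain ⟨j, hj, i, hi, e⟩ := L.exists_comm
    have k1 := k.2 j hj
    have k2 := zc_conj h.cz k1
    have e1 : c * j * c⁻¹ * (c * (c * j * c⁻¹) * c⁻¹) * j = j * (c * j * c⁻¹) * (c * (c * j * c⁻¹) * c⁻¹) := by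
      generalize hs : c * j * c⁻¹ * j⁻¹ = s at k1 k2
      rw [show c * j * c⁻¹ = s * j by simp [← hs], ← conj_mul, show c * j * c⁻¹ = s * j by simp [← hs]]
      have : Commute j (s * j) := Commute.mul_right (k1.2 j hj) rfl
      exact ((this.mul_right (Commute.mul_right (k2.2 j hj) this)).eq.symm.trans (mul_assoc _ _ _).symm)
    have k3 : Zc (qOf z) (j * (c * j * c⁻¹) * (c * (c * j * c⁻¹) * c⁻¹)) := (h.fix _ (mul_mem (mul_mem hj
      (q_conj h.cz hj)) (q_conj h.cz (q_conj h.cz hj))) (by rw [cmul c (_ * _), cmul c j, h.s3, e1])).elim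
        (· ▸ Zc.one) (· ▸ h.zc_z)
    have k4 : Zc (qOf z) j := by
      generalize hs : c * j * c⁻¹ * j⁻¹ = s at k1 k2
      rw [show c * j * c⁻¹ = s * j by simp [← hs], ← conj_mul, show c * j * c⁻¹ = s * j by simp [← hs],
        ← k1.2 j hj] at k3
      have := ((k3.mul k1.inv).mul k2.inv).mul k1.inv
      rw [show j * (j * s) * (c * s * c⁻¹ * (j * s)) * s⁻¹ = j * j * ((s * (c * s * c⁻¹)) * j) by group,
        ← (k1.mul k2).2 j hj] at this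
      have p := L.pow4 hj
      simpa [mul_assoc, ← mul_eq_one_iff_eq_inv.1 (show j * (j * (j * j)) = 1 by simpa [pow_succ, mul_assoc] using p)]
        using this.inv
    exact h.z1 (e ▸ commutatorElement_eq_one_iff_mul_comm.2 (k4.2 i hi).symm)
  have := omega6.2.2 (φ ⟨y, mem_C.2 yz⟩) fun w hw => by
    obtain ⟨x, k, rfl⟩ := h.inn hw
    have xz := mem_C.1 x.2
    have mD : y * (x * y⁻¹ * (x : G)⁻¹) ∈ D := mul_mem yD ⟨(Commute.mul_left xz (inv_mem yD).1).mul_left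
      (Commute.inv_left xz), fun j hj => by
        simpa [mul_assoc] using zc_conj xz ((inv_mem yD).2 _ (q_conj (Commute.inv_left xz) hj))⟩
    rw [← commutatorElement_eq_one_iff_mul_comm, ← map_commutatorElement, h.ker]
    have := L.mem_of_zc (mem_inf.2 ⟨mem_C.2 mD.1, mem_C.2 (by
      rw [show y * (x * y⁻¹ * (x : G)⁻¹) * a = y * (x * (y⁻¹ * a * y⁻¹⁻¹)) * y⁻¹ * (a⁻¹ * (x : G)⁻¹ * a) by group,
        k _ (h.nm (Commute.inv_left yz) ha), mul_assoc a⁻¹, (Commute.inv_left (k a ha)).eq]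
      group)⟩) mD.2
    exact .inl (by simpa [commutatorElement_def, mul_assoc] using this)
  rcases (h.ker _).1 this with e | e | e
  exacts [e, (cD ((mul_mem_cancel_left yD).1 (JD e))).elim, (cD (by
    simpa [eq_inv_of_mul_eq_one_left h.c3] using (mul_mem_cancel_left yD).1 (JD e))).elim]

theorem main {K : Type*} [Field K] [Fintype K] (hK : Fintype.card K = 4) :
    centralizer {z} ⊔ oddCore G = ⊤ ∨ Spor.IsoFi23 G ∨ ∃ (W : Subgroup G)
      (_ : W.Normal), Nat.card W = 4 ∧ (∀ w ∈ W, w ^ 2 = 1) ∧ Nonempty (G ⧸ W ≃* MulAut (PSU 6 K 2)) := by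
  obtain ⟨a, ha, n⟩ := h.exE
  obtain ⟨U, _, _, _, ⟨L⟩⟩ := h.lc ha n
  exact (h.t3 ha n L).main (h.fin ha L) hK

end Hy

end Cfsg.Lib.LX.O6
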